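import Cfsg.Agent.H984.PQR.Tool
import Cfsg.Agent.H1.J1Real
import Cfsg.Agent.S2039

/-!
# The row of `J₁` for S3988 (helper984)
-/

set_option autoImplicit false

namespace Cfsg.Agent.H984.PQR.RowJ1

open Cfsg.Agent.H562.PQR
open Cfsg.Agent.SporadicB.J1.Mat Cfsg.Agent.SporadicB.J1.Data Cfsg.Agent.SporadicB.J1.Main
open Cfsg.Spor (J1)
open Cfsg.Agent.H1.J1Real (wu sq_u prime_cases)
open Cfsg.Agent.H413.JOneLocal (card_J1)

theorem mult : Cfsg.Agent.H80.Fpf.MultDvd J1 1 :=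
  Cfsg.Agent.H80.Fpf.multDvd_of_cyclic one_ne_zero Cfsg.Agent.S2039.result

theorem u_ne : ev wu ≠ 1 := (rep_ev _).ne Rep.one (by decide +kernel)

theorem trip {b c : ℕ} (hb : b.Prime) (hc : c.Prime) (h2b : 2 ≠ b) (h2c : 2 ≠ c) (hbc : b ≠ c) (w : List ℕ)
    (h1 : powC (evC w) b cI = cI) (h2 : powC (mulC (evC wu) (evC w)) c cI = cI) : TripABC 2 b c J1 := by
  refine trip_of_pow (i := 1) (j := 1) (k := 1) mult (fun s hs h => absurd (Nat.dvd_one.1 h) hs.one_lt.ne') Nat.prime_two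
    hb hc h2b h2c hbc (x := ev wu) (y := ev w) ?_ ?_ ?_ u_ne
  · rw [pow_one, pow_two]; exact sq_u
  · rw [pow_one]; exact ((rep_ev _).pow b).eq Rep.one h1
  · rw [pow_one]; exact (((rep_ev _).mul (rep_ev _)).pow c).eq Rep.one h2

theorem trip_7_19 : TripABC 2 7 19 J1 :=
  trip (by norm_num) (by norm_num) (by norm_num) (by norm_num) (by norm_num) [0] (by decide +kernel) (by decide +kernel)

theorem trip_11_5 : TripABC 2 11 5 J1 :=
  trip (by norm_num) (by norm_num) (by norm_num) (by norm_num) (by norm_num) [1, 1, 0, 0] (by decide +kernel)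
    (by decide +kernel)

theorem trip_5_3 : TripABC 2 5 3 J1 :=
  trip (by norm_num) (by norm_num) (by norm_num) (by norm_num) (by norm_num) [1, 0, 1, 0, 0] (by decide +kernel)
    (by decide +kernel)

/-- **the row of `J₁`** -/
theorem row_J1 : RowOdd J1 := by
  intro p hp hp2 hd
  rw [card_J1] at hd
  refine Or.inr ?_
  rcases prime_cases hp hd with rfl | rfl | rfl | rfl | rfl | rfl
  · exact absurd rfl hp2
  · exact ⟨2, 5, 3, by simp, by simp, trip_5_3⟩
  · exact ⟨2, 5, 3, by simp, by simp, trip_5_3⟩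
  · exact ⟨2, 7, 19, by simp, by simp, trip_7_19⟩
  · exact ⟨2, 11, 5, by simp, by simp, trip_11_5⟩
  · exact ⟨2, 7, 19, by simp, by simp, trip_7_19⟩

end Cfsg.Agent.H984.PQR.RowJ1
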