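import Cfsg.Agent.H984.PQR.Tool
import Cfsg.Agent.H1.J2Lift
import Cfsg.Agent.S2040

/-!
# The row of `J₂` for S3988 (helper984)
-/

set_option autoImplicit false

namespace Cfsg.Agent.H984.PQR.RowJ2

open Cfsg.Agent.H562.PQR
open Cfsg.Agent.J2.HundredGens (gw pw pw_eq pw_mul pw_nil pw_val)
open Cfsg.Agent.H1.J2Cover (gw_append gw_nil)

theorem mult : Cfsg.Agent.H80.Fpf.MultDvd Cfsg.Spor.J2 2 :=
  Cfsg.Agent.H80.Fpf.multDvd_of_cyclic two_ne_zero Cfsg.Agent.S2040.result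

/-- powers of words -/
def pwr (L : List ℕ) : ℕ → List ℕ
  | 0 => []
  | n + 1 => L ++ pwr L n

theorem gw_pwr (L : List ℕ) : ∀ n : ℕ, gw (pwr L n) = gw L ^ n
  | 0 => by rw [pow_zero]; exact gw_nil
  | n + 1 => by rw [pow_succ', ← gw_pwr L n, ← gw_append]; rfl

theorem gw_ne {L : List ℕ} (i : Fin 100) (h : Nat.beq (Cfsg.Agent.J2.HundredGens.run L i) i = false) : gw L ≠ 1 := by
  intro h1
  have h2 : pw L = pw [] := congrArg Subtype.val h1
  have h3 := pw_val L i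
  rw [h2, pw_val [] i] at h3
  have h4 : Cfsg.Agent.J2.HundredGens.run L i = i := h3.symm
  rw [h4] at h
  simp at h

theorem trip {b c : ℕ} (hb : b.Prime) (hc : c.Prime) (h2b : 2 ≠ b) (h2c : 2 ≠ c) (hbc : b ≠ c) (u w : List ℕ)
    (h0 : Cfsg.Agent.J2.HundredGens.chk (pwr u 2) [] = true)
    (h1 : Cfsg.Agent.J2.HundredGens.chk (pwr w b) [] = true)
    (h2 : Cfsg.Agent.J2.HundredGens.chk (pwr (u ++ w) c) [] = true) (i : Fin 100)
    (h3 : Nat.beq (Cfsg.Agent.J2.HundredGens.run u i) i = false) : TripABC 2 b c Cfsg.Spor.J2 := by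
  have key : TripABC 2 b c Cfsg.Agent.SporadicA.J2Hundred.G := by
    have hm : Cfsg.Agent.H80.Fpf.MultDvd Cfsg.Agent.SporadicA.J2Hundred.G 2 := by
      intro Γ _ _ π hπ
      have h := mult Γ _ (hπ.equiv_comp Cfsg.Agent.H1.J2Lift.psi)
      have hk : (Cfsg.Agent.H1.J2Lift.psi.toMonoidHom.comp π).ker = π.ker := by
        ext g
        rw [MonoidHom.mem_ker, MonoidHom.mem_ker, MonoidHom.comp_apply]
        exact (MulEquiv.map_eq_one_iff Cfsg.Agent.H1.J2Lift.psi)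
      rwa [hk] at h
    refine trip_of_pow (i := 1) (j := 1) (k := 1) hm
      (fun s hs h => Or.inl ((Nat.prime_dvd_prime_iff_eq hs Nat.prime_two).1 h)) Nat.prime_two
      hb hc h2b h2c hbc (x := gw u) (y := gw w) ?_ ?_ ?_ (gw_ne i h3)
    · rw [pow_one, ← gw_pwr]; exact Subtype.ext (pw_eq h0)
    · rw [pow_one, ← gw_pwr]; exact Subtype.ext (pw_eq h1)
    · rw [pow_one, ← gw_append, ← gw_pwr]; exact Subtype.ext (pw_eq h2)
  exact key.congr Cfsg.Agent.H1.J2Lift.psi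

theorem trip_3_7 : TripABC 2 3 7 Cfsg.Spor.J2 :=
  trip (by norm_num) (by norm_num) (by norm_num) (by norm_num) (by norm_num) [1, 4] [0, 1, 3, 2, 3, 1, 2]
    (by decide +kernel) (by decide +kernel) (by decide +kernel) 0 (by decide +kernel)

theorem trip_3_5 : TripABC 2 3 5 Cfsg.Spor.J2 :=
  trip (by norm_num) (by norm_num) (by norm_num) (by norm_num) (by norm_num) [0] [1, 2]
    (by decide +kernel) (by decide +kernel) (by decide +kernel) 2 (by decide +kernel)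

/-- **the row of `J₂`** -/
theorem row_J2 : RowOdd Cfsg.Spor.J2 := by
  intro p hp hp2 hd
  have hcard : Nat.card Cfsg.Spor.J2 = 604800 := Cfsg.Agent.S2040.card_J2
  rw [hcard, show 604800 = 2 ^ 7 * 3 ^ 3 * 5 ^ 2 * 7 by norm_num] at hd
  have h2 : ∀ q n : ℕ, q.Prime → p ∣ q ^ n → p = q := fun q n hq h =>
    (Nat.prime_dvd_prime_iff_eq hp hq).1 (hp.dvd_of_dvd_pow h)
  refine Or.inr ?_
  simp only [hp.dvd_mul] at hd
  rcases hd with ((hd | hd) | hd) | hd
  · exact absurd (h2 2 7 (by norm_num) hd) hp2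
  · rw [h2 3 3 (by norm_num) hd]; exact ⟨2, 3, 7, by simp, by simp, trip_3_7⟩
  · rw [h2 5 2 (by norm_num) hd]; exact ⟨2, 3, 5, by simp, by simp, trip_3_5⟩
  · rw [(Nat.prime_dvd_prime_iff_eq hp (by norm_num)).1 hd]; exact ⟨2, 3, 7, by simp, by simp, trip_3_7⟩

end Cfsg.Agent.H984.PQR.RowJ2
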