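import Cfsg.Agent.H984.PQR.Tool
import Cfsg.Agent.J3.Elts
import Cfsg.Agent.S2041

/-!
# The row of `J₃` for S3988 (helper984)
-/

set_option autoImplicit false
set_option maxRecDepth 100000

namespace Cfsg.Agent.H984.PQR.RowJ3

open Cfsg.Agent.H562.PQR
open Cfsg Cfsg.Spor Cfsg.Agent.J3.Core Cfsg.Agent.J3.Tab Cfsg.Agent.J3.Mono Cfsg.Agent.J3.Elts

theorem chkC : beqL (cols (powT tC 2)) (cols (tS 0)) = true := by decide +kernel
theorem chkD1 : beqL (cols (powT (tD (0, 1)) 9)) (cols (tS 0)) = true := by decide +kernel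
theorem chkD14 : beqL (cols (powT (compT (tD (0, 1)) (tD (1, 1))) 9)) (cols (tS 0)) = true := by decide +kernel
theorem chkA7 : beqL (cols (powT (tA (2, 1)) 3)) (cols (tS 0)) = true := by decide +kernel
theorem chk17 : beqL (cols (powT (compT tC (tD (0, 1))) 17)) (cols (tS 0)) = true := by decide +kernel
theorem chk19 : beqL (cols (powT (compT tC (compT (tD (0, 1)) (tD (1, 1)))) 19)) (cols (tS 0)) = true := by
  decide +kernel
theorem chk5 : beqL (cols (powT (compT tC (tA (2, 1))) 5)) (cols (tS 0)) = true := by decide +kernel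
theorem chkne : Nat.beq ((cols (compT (tD (0, 1)) tC)).getD 1 0) ((cols (compT tC (tD (0, 1)))).getD 1 0) = false := by
  decide +kernel

section

variable {F : Type*} [Field F] {ω : F} (H : Good ω) (G : Gens F ω)

include H in
theorem repc : RepG ω tC G.c := by unfold RepG; rw [G.hc]; exact repC H

include H in
theorem repd (Z : F9) : RepG ω (tD Z) (G.d Z) := by unfold RepG; rw [G.hd]; exact repD H _

include H in
theorem repa (Z : F9) : RepG ω (tA Z) (G.a Z) := by unfold RepG; rw [G.ha]; exact repA H _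

include H in
theorem c_not_mem_center : G.c ∉ Subgroup.center (threeJ3 F ω) := by
  intro h
  rw [Subgroup.mem_center_iff] at h
  have h1 := h (G.d (0, 1))
  have h2 := RepG.cols_eq H ((h1 ▸ (repd H G (0, 1)).mul (repc H G)) : RepG ω (compT (tD (0, 1)) tC) (G.c * G.d (0, 1)))
    ((repc H G).mul (repd H G (0, 1))) ((0, 1) : F9)
  have h3 : idx ((0, 1) : F9) = 1 := by decide
  rw [h3] at h2
  have h4 := chkne
  rw [h2] at h4
  simp at h4

end

section

variable {F : Type} [Field F] [Fintype F] {ω : F} (hF : Fintype.card F = 4) (hω : ω ^ 2 + ω + 1 = 0)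

include hF hω in
theorem mult : Cfsg.Agent.H80.Fpf.MultDvd (J3 F ω) 3 :=
  Cfsg.Agent.H80.Fpf.multDvd_of_cyclic (by norm_num) (Cfsg.Agent.S2041.result hF ω hω)

include hF hω in
theorem trip {c : ℕ} (hc : c.Prime) (h2c : 2 ≠ c) (h3c : 3 ≠ c) (G : Gens F ω) {y : threeJ3 F ω}
    (h1 : y ^ 9 = 1) (h2 : (G.c * y) ^ c = 1) : TripABC 2 3 c (J3 F ω) := by
  have H := good_of_card hF hω
  set π := QuotientGroup.mk' (Subgroup.center (threeJ3 F ω)) with hπ
  refine trip_of_pow (i := 1) (j := 2) (k := 1) (mult hF hω)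
    (fun s hs h => Or.inr (Or.inr (Or.inl ((Nat.prime_dvd_prime_iff_eq hs Nat.prime_three).1 h)))) Nat.prime_two
      Nat.prime_three hc (by norm_num) h2c h3c (x := π G.c) (y := π y) ?_ ?_ ?_ ?_
  · rw [pow_one, ← map_pow]
    have h3 : G.c ^ 2 = 1 := RepG.ext ((repc H G).pow H 2) (repG_one H) (beqL_eq chkC)
    rw [h3, map_one]
  · rw [← map_pow, show 3 ^ 2 = 9 by norm_num, h1, map_one]
  · rw [pow_one, ← map_mul, ← map_pow, h2, map_one]
  · intro h
    exact c_not_mem_center H G ((QuotientGroup.eq_one_iff _).1 h)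

include hF hω in
theorem trip_17 : TripABC 2 3 17 (J3 F ω) := by
  have H := good_of_card hF hω
  obtain ⟨G⟩ := exists_gens hF H
  exact trip hF hω (by norm_num) (by norm_num) (by norm_num) G (y := G.d (0, 1))
    (RepG.ext ((repd H G _).pow H 9) (repG_one H) (beqL_eq chkD1))
    (RepG.ext (((repc H G).mul (repd H G _)).pow H 17) (repG_one H) (beqL_eq chk17))

include hF hω in
theorem trip_19 : TripABC 2 3 19 (J3 F ω) := by
  have H := good_of_card hF hω
  obtain ⟨G⟩ := exists_gens hF H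
  exact trip hF hω (by norm_num) (by norm_num) (by norm_num) G (y := G.d (0, 1) * G.d (1, 1))
    (RepG.ext (((repd H G _).mul (repd H G _)).pow H 9) (repG_one H) (beqL_eq chkD14))
    (RepG.ext (((repc H G).mul ((repd H G _).mul (repd H G _))).pow H 19) (repG_one H) (beqL_eq chk19))

include hF hω in
theorem trip_5 : TripABC 2 3 5 (J3 F ω) := by
  have H := good_of_card hF hω
  obtain ⟨G⟩ := exists_gens hF H
  exact trip hF hω (by norm_num) (by norm_num) (by norm_num) G (y := G.a (2, 1))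
    (by
      have h1 : G.a (2, 1) ^ 3 = 1 := RepG.ext ((repa H G _).pow H 3) (repG_one H) (beqL_eq chkA7)
      rw [show 9 = 3 * 3 by norm_num, pow_mul, h1, one_pow])
    (RepG.ext (((repc H G).mul (repa H G _)).pow H 5) (repG_one H) (beqL_eq chk5))

include hF hω in
/-- **the row of `J₃`** -/
theorem row_J3 : RowOdd (J3 F ω) := by
  intro p hp hp2 hd
  have hcard : Nat.card (J3 F ω) = 50232960 := Cfsg.Agent.J3.Simple.card_J3 hF (good_of_card hF hω)
  rw [hcard, show 50232960 = 2 ^ 7 * 3 ^ 5 * 5 * 17 * 19 by norm_num] at hd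
  have h2 : ∀ q n : ℕ, q.Prime → p ∣ q ^ n → p = q := fun q n hq h =>
    (Nat.prime_dvd_prime_iff_eq hp hq).1 (hp.dvd_of_dvd_pow h)
  refine Or.inr ?_
  simp only [hp.dvd_mul] at hd
  rcases hd with (((hd | hd) | hd) | hd) | hd
  · exact absurd (h2 2 7 (by norm_num) hd) hp2
  · rw [h2 3 5 (by norm_num) hd]; exact ⟨2, 3, 5, by simp, by simp, trip_5 hF hω⟩
  · rw [(Nat.prime_dvd_prime_iff_eq hp (by norm_num)).1 hd]; exact ⟨2, 3, 5, by simp, by simp, trip_5 hF hω⟩
  · rw [(Nat.prime_dvd_prime_iff_eq hp (by norm_num)).1 hd]; exact ⟨2, 3, 17, by simp, by simp, trip_17 hF hω⟩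
  · rw [(Nat.prime_dvd_prime_iff_eq hp (by norm_num)).1 hd]; exact ⟨2, 3, 19, by simp, by simp, trip_19 hF hω⟩

end

end Cfsg.Agent.H984.PQR.RowJ3
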