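import Cfsg.Agent.H562.PQR.Iface

/-!
# Triples of prime power orders from words (helper984, for S3988)
-/

set_option autoImplicit false

namespace Cfsg.Agent.H984.PQR

open Cfsg.Agent.H80.Fpf (IsCover MultDvd)
open Cfsg.Agent.H562.PQR

universe v

/-- `x ^ a ^ i = 1`, `x ≠ 1` -/
theorem pe_of_pow {a i : ℕ} (ha : a.Prime) {G : Type v} [Group G] {x : G} (h1 : x ≠ 1) (h : x ^ a ^ i = 1) : PE a x := by
  obtain ⟨k, -, hk⟩ := (Nat.dvd_prime_pow ha).1 (orderOf_dvd_of_pow_eq_one h)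
  exact ⟨h1, k, hk⟩

/-- two elements of coprime prime power orders with product of prime power order, one of them nontrivial -/
theorem trip_of_pow {S : Type v} [Group S] {a b c i j k m : ℕ} (hm : MultDvd S m)
    (hm' : ∀ s : ℕ, s.Prime → s ∣ m → s = 2 ∨ s = a ∨ s = b ∨ s = c)
    (ha : a.Prime) (hb : b.Prime) (hc : c.Prime) (hab : a ≠ b) (hac : a ≠ c) (hbc : b ≠ c) {x y : S}
    (hx : x ^ a ^ i = 1) (hy : y ^ b ^ j = 1) (hz : (x * y) ^ c ^ k = 1) (hne : x ≠ 1) : TripABC a b c S := by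
  have cop : ∀ {p q r s : ℕ}, p.Prime → q.Prime → p ≠ q → ∀ {u : S}, u ^ p ^ r = 1 → u ^ q ^ s = 1 → u = 1 := by
    intro p q r s hp hq hpq u h1 h2
    have h3 : orderOf u ∣ 1 := by
      have h4 : Nat.Coprime (p ^ r) (q ^ s) := Nat.Coprime.pow _ _ ((Nat.coprime_primes hp hq).2 hpq)
      rw [← h4.gcd_eq_one]
      exact Nat.dvd_gcd (orderOf_dvd_of_pow_eq_one h1) (orderOf_dvd_of_pow_eq_one h2)
    exact orderOf_eq_one_iff.1 (Nat.dvd_one.1 h3)
  have hy1 : y ≠ 1 := by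
    rintro rfl
    rw [mul_one] at hz
    exact hne (cop ha hc hac hx hz)
  have hz1 : x * y ≠ 1 := by
    intro h
    have h1 : y = x⁻¹ := eq_inv_of_mul_eq_one_right h
    rw [h1, inv_pow, inv_eq_one] at hy
    exact hne (cop ha hb hab hx hy)
  exact TripABC.of_mult hm hm' ha hb hc hab hac hbc (x := x) (y := y) (z := (x * y)⁻¹) (pe_of_pow ha hne hx)
    (pe_of_pow hb hy1 hy) (PE.inv (pe_of_pow hc hz1 hz)) (mul_inv_cancel _)

end Cfsg.Agent.H984.PQR
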